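import Mathlib
import Cfsg.Agent.Transfer.SmallRank

/-!
Subgroups of `p`-groups that are cyclic by cyclic have Frattini index dividing `p ^ 2`.
-/

namespace CfsgLib.Transfer

variable {p : ℕ} [hp : Fact p.Prime]

theorem card_dvd_prime_of_cyclic {V : Type*} [Group V] [Finite V] (hc : IsCyclic V) (h : ∀ v : V, v ^ p = 1) :
    Nat.card V ∣ p := by
  haveI := hc
  rw [← IsCyclic.exponent_eq_card]
  exact Monoid.exponent_dvd_of_forall_pow_eq_one h

theorem frattini_index_dvd_sq {R : Type*} [Group R] [Finite R] (hR : IsPGroup p R)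
    (N : Subgroup R) [N.Normal] [IsCyclic N] [IsCyclic (R ⧸ N)] (H : Subgroup R) :
    (frattini H).index ∣ p ^ 2 := by
  set π := QuotientGroup.mk' (frattini H) with hπ
  set N' := N.subgroupOf H with hN'
  have hN'c : IsCyclic N' := isCyclic_of_injective ((H.subtype.comp N'.subtype).codRestrict N
    (fun x => x.2)) (fun a b h => by
      apply Subtype.ext; apply Subtype.ext
      exact congrArg (fun x : N => (x : R)) h)
  set C := N'.map π with hC
  haveI : C.Normal := Subgroup.Normal.map inferInstance _ (QuotientGroup.mk'_surjective _)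
  have hpow := CfsgLib.PGroup.frattini_quotient_pow (hR.to_subgroup H)
  have h1 : Nat.card C ∣ p := by
    haveI := hN'c
    refine card_dvd_prime_of_cyclic (isCyclic_of_surjective _ (MonoidHom.subgroupMap_surjective π N')) ?_
    exact fun v => Subtype.ext (hpow v)
  have h2 : C.index ∣ p := by
    rw [Subgroup.index_eq_card]
    have hcy : IsCyclic (↥H ⧸ N') := isCyclic_of_injective
      (QuotientGroup.map N' N H.subtype le_rfl) (by
        rw [injective_iff_map_eq_one]
        intro x hx
        obtain ⟨y, rfl⟩ := QuotientGroup.mk'_surjective N' x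
        exact (QuotientGroup.eq_one_iff y).mpr ((QuotientGroup.eq_one_iff (y : R)).mp hx))
    refine card_dvd_prime_of_cyclic (isCyclic_of_surjective
      (QuotientGroup.map N' C π (Subgroup.le_comap_map π N')) ?_) fun v => ?_
    · intro x
      obtain ⟨y, rfl⟩ := QuotientGroup.mk'_surjective C x
      obtain ⟨z, rfl⟩ := QuotientGroup.mk'_surjective (frattini H) y
      exact ⟨QuotientGroup.mk' N' z, rfl⟩
    · obtain ⟨y, rfl⟩ := QuotientGroup.mk'_surjective C v
      rw [← map_pow, hpow, map_one]
  rw [Subgroup.index_eq_card, ← C.card_mul_index, sq]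
  exact Nat.mul_dvd_mul h1 h2


/-- A subgroup `Q` of a Sylow subgroup: the bound in `G`. -/
theorem frattini_index_dvd_sq_of_le {G : Type*} [Group G] [Finite G] {P Q : Subgroup G}
    (hP : IsPGroup p P) (hQP : Q ≤ P) (N : Subgroup P) [N.Normal] [IsCyclic N] [IsCyclic (P ⧸ N)] :
    (frattini Q).index ∣ p ^ 2 := by
  have h1 := frattini_index_dvd_sq hP N (Q.subgroupOf P)
  rw [← CfsgLib.PGroup.map_frattini_eq (hP.to_subgroup (Q.subgroupOf P))
    (Subgroup.subgroupOfEquivOfLe hQP).toMonoidHom (Subgroup.subgroupOfEquivOfLe hQP).surjective]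
  exact (Subgroup.index_map_dvd _ (Subgroup.subgroupOfEquivOfLe hQP).surjective).trans h1

end CfsgLib.Transfer
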