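import Mathlib
import Cfsg.Agent.Transfer.Frobenius

/-!
Grün's first theorem: `P ∩ G'` is generated by `P ∩ N_G(P)'` and the `P ∩ P'^z`.
-/

open scoped Pointwise commutatorElement

namespace CfsgLib.Transfer

universe u

variable {G : Type u} [Group G] {p : ℕ}

/-- The transfer evaluation behind Grün's first theorem. -/
theorem mem_of_gruen_hyp [Finite G] [hp : Fact p.Prime] (P : Sylow p G) (R : Subgroup G)
    (hPder : ⁅(P : Subgroup G), (P : Subgroup G)⁆ ≤ R)
    (hN : ∀ n ∈ Subgroup.normalizer ((P : Subgroup G) : Set G), ∀ x ∈ (P : Subgroup G),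
      n⁻¹ * x * n * x⁻¹ ∈ R)
    (hconj : ∀ (g : G), ∀ w ∈ ⁅(P : Subgroup G), (P : Subgroup G)⁆,
      g⁻¹ * w * g ∈ (P : Subgroup G) → g⁻¹ * w * g ∈ R)
    {x : G} (hx : x ∈ (P : Subgroup G)) (hxG : x ∈ commutator G) : x ∈ R := by
  classical
  suffices key : ∀ (n : ℕ) (x : G), orderOf x = n → x ∈ (P : Subgroup G) → x ∈ commutator G → x ∈ R
    from key _ x rfl hx hxG
  intro n
  induction n using Nat.strong_induction_on with
  | h n ih =>
  intro x hn hx hxG
  by_cases hx1 : x = 1
  · rw [hx1]; exact one_mem R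
  have hder : commutator (P : Subgroup G) ≤ R.subgroupOf (P : Subgroup G) := by
    intro y hy
    refine hPder ?_
    rw [← Subgroup.map_subtype_commutator]
    exact Subgroup.mem_map_of_mem _ hy
  haveI : (R.subgroupOf (P : Subgroup G)).Normal := by
    constructor
    intro a ha b
    have h1 : ⁅b, a⁆ ∈ R.subgroupOf (P : Subgroup G) :=
      hder (Subgroup.commutator_mem_commutator (Subgroup.mem_top b) (Subgroup.mem_top a))
    have h2 := mul_mem h1 ha
    rwa [commutatorElement_def, inv_mul_cancel_right] at h2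
  letI : CommGroup ((P : Subgroup G) ⧸ R.subgroupOf (P : Subgroup G)) :=
    { (inferInstance : Group ((P : Subgroup G) ⧸ R.subgroupOf (P : Subgroup G))) with
      mul_comm := fun a b => by
        obtain ⟨a, rfl⟩ := QuotientGroup.mk_surjective a
        obtain ⟨b, rfl⟩ := QuotientGroup.mk_surjective b
        rw [← QuotientGroup.mk_mul, ← QuotientGroup.mk_mul, QuotientGroup.eq]
        have h1 : ⁅b⁻¹, a⁻¹⁆ ∈ R.subgroupOf (P : Subgroup G) :=
          hder (Subgroup.commutator_mem_commutator (Subgroup.mem_top _) (Subgroup.mem_top _))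
        simpa [commutatorElement_def, mul_assoc] using h1 }
  set φ : (P : Subgroup G) →* (P : Subgroup G) ⧸ R.subgroupOf (P : Subgroup G) :=
    QuotientGroup.mk' _ with hφ
  have hφ1 : ∀ a : (P : Subgroup G), φ a = 1 ↔ (a : G) ∈ R := fun a => by
    rw [hφ, QuotientGroup.mk'_apply, QuotientGroup.eq_one_iff, Subgroup.mem_subgroupOf]
  obtain ⟨e, he⟩ := IsPGroup.iff_orderOf.mp P.2 ⟨x, hx⟩
  rw [Subgroup.orderOf_mk] at he
  -- proper powers are handled by induction
  have hsmall : ∀ (r : ℕ) (g : G), r ≠ 1 → r ∣ orderOf x → (hm : g⁻¹ * x ^ r * g ∈ (P : Subgroup G)) →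
      φ ⟨g⁻¹ * x ^ r * g, hm⟩ = 1 := by
    intro r g hr hrd hm
    rw [hφ1]
    refine ih _ ?_ _ rfl hm ?_
    · have h1 : orderOf (g⁻¹ * x ^ r * g) = orderOf (x ^ r) := by
        rw [show g⁻¹ * x ^ r * g = MulAut.conj g⁻¹ (x ^ r) by simp, MulEquiv.orderOf_eq]
      rw [h1, orderOf_pow, Nat.gcd_eq_right hrd, ← hn]
      refine Nat.div_lt_self (orderOf_pos x) ?_
      have := Nat.pos_of_dvd_of_pos hrd (orderOf_pos x)
      omega
    · have h1 := (inferInstance : (commutator G).Normal).conj_mem _
        (pow_mem hxG r) g⁻¹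
      simpa using h1
  letI : Fintype (G ⧸ (P : Subgroup G)) := Fintype.ofFinite _
  haveI : Fintype (Quotient (MulAction.orbitRel (Subgroup.zpowers x) (G ⧸ (P : Subgroup G)))) :=
    Fintype.ofFinite _
  set f : G ⧸ (P : Subgroup G) → (P : Subgroup G) ⧸ R.subgroupOf (P : Subgroup G) := fun c =>
    if h : c.out⁻¹ * x * c.out ∈ (P : Subgroup G) then φ ⟨_, h⟩ else 1 with hf
  set F := Finset.univ.filter (fun c : G ⧸ (P : Subgroup G) => x • c = c) with hF
  have hfix : ∀ c : G ⧸ (P : Subgroup G), x • c = c ↔ c.out⁻¹ * x * c.out ∈ (P : Subgroup G) := by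
    intro c
    conv_lhs => rw [← QuotientGroup.out_eq' c]
    rw [MulAction.Quotient.smul_mk, QuotientGroup.eq, smul_eq_mul]
    rw [← inv_mem_iff (H := (P : Subgroup G))]
    simp [mul_assoc]
  -- step A
  have hA : φ.transfer x = ∏ c ∈ F, f c := by
    rw [MonoidHom.transfer_eq_prod_quotient_orbitRel_zpowers_quot]
    rw [← Finset.prod_filter_of_ne
      (p := fun q : Quotient (MulAction.orbitRel (Subgroup.zpowers x) (G ⧸ (P : Subgroup G))) =>
        Function.minimalPeriod (x • ·) q.out = 1)]
    · refine Finset.prod_bij' (fun q _ => q.out) (fun c _ => Quotient.mk _ c) ?_ ?_ ?_ ?_ ?_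
      · intro q hq
        rw [Finset.mem_filter] at hq
        rw [hF, Finset.mem_filter]
        exact ⟨Finset.mem_univ _, Function.minimalPeriod_eq_one_iff_isFixedPt.mp hq.2⟩
      · intro c hc
        rw [hF, Finset.mem_filter] at hc
        rw [Finset.mem_filter]
        refine ⟨Finset.mem_univ _, ?_⟩
        have hout : (Quotient.mk (MulAction.orbitRel (Subgroup.zpowers x) (G ⧸ (P : Subgroup G))) c).out
            = c := by
          obtain ⟨⟨w, m, rfl⟩, hw⟩ := MulAction.mem_orbit_iff.mp (MulAction.orbitRel_apply.mp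
            (Quotient.mk_out (s := MulAction.orbitRel (Subgroup.zpowers x) (G ⧸ (P : Subgroup G))) c))
          rw [← hw]
          exact Subgroup.zpow_mem (MulAction.stabilizer G c) hc.2 m
        rw [hout]
        exact Function.minimalPeriod_eq_one_iff_isFixedPt.mpr hc.2
      · intro q _
        exact Quotient.out_eq q
      · intro c hc
        rw [hF, Finset.mem_filter] at hc
        obtain ⟨⟨w, m, rfl⟩, hw⟩ := MulAction.mem_orbit_iff.mp (MulAction.orbitRel_apply.mp
          (Quotient.mk_out (s := MulAction.orbitRel (Subgroup.zpowers x) (G ⧸ (P : Subgroup G))) c))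
        rw [← hw]
        exact Subgroup.zpow_mem (MulAction.stabilizer G c) hc.2 m
      · intro q hq
        rw [Finset.mem_filter] at hq
        have hm := (hfix q.out).mp (Function.minimalPeriod_eq_one_iff_isFixedPt.mp hq.2)
        rw [hf]
        simp only [dif_pos hm]
        congr 2
        rw [hq.2, pow_one]
    · intro q _ hne
      by_contra hr
      apply hne
      refine hsmall _ _ hr ?_ _
      refine Function.IsPeriodicPt.minimalPeriod_dvd ?_
      show (fun c => x • c)^[orderOf x] q.out = q.out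
      rw [smul_iterate, pow_orderOf_eq_one]
      exact one_smul G q.out
  -- step B
  set F0 := Finset.univ.filter (fun c : G ⧸ (P : Subgroup G) => ∀ u : (P : Subgroup G), u • c = c) with hF0
  have hF0F : F0 ⊆ F := by
    intro c hc
    rw [hF0, Finset.mem_filter] at hc
    rw [hF, Finset.mem_filter]
    exact ⟨hc.1, hc.2 ⟨x, hx⟩⟩
  have hF0f : ∀ c ∈ F0, f c = φ ⟨x, hx⟩ := by
    intro c hc
    have hc2 := (Finset.mem_filter.mp hc).2
    have hnorm : c.out ∈ Subgroup.normalizer ((P : Subgroup G) : Set G) := by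
      rw [← inv_mem_iff]
      refine Subgroup.mem_normalizer_fintype fun u hu => ?_
      have h1 : u • c = c := hc2 ⟨u, hu⟩
      conv_lhs at h1 => rw [← QuotientGroup.out_eq' c]
      conv_rhs at h1 => rw [← QuotientGroup.out_eq' c]
      rw [MulAction.Quotient.smul_mk, smul_eq_mul, eq_comm, QuotientGroup.eq] at h1
      rw [inv_inv, mul_assoc]
      exact h1
    have hm := (hfix c).mp ((Finset.mem_filter.mp (hF0F hc)).2)
    rw [hf]
    simp only [dif_pos hm]
    rw [← mul_inv_eq_one, ← map_inv, ← map_mul, hφ1]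
    exact hN _ hnorm x hx
  have hconst : ∀ c ∈ F, ∀ u : (P : Subgroup G), u • c ∈ F → f (u • c) = f c := by
    intro c hc u hcu
    have hm := (hfix c).mp (Finset.mem_filter.mp hc).2
    have hm' := (hfix _).mp (Finset.mem_filter.mp hcu).2
    rw [hf]
    simp only [dif_pos hm, dif_pos hm']
    rw [← mul_inv_eq_one, ← map_inv, ← map_mul, hφ1]
    -- `(u • c).out = u * c.out * v`
    have hv : (c.out)⁻¹ * (u : G)⁻¹ * (u • c).out ∈ (P : Subgroup G) := by
      have h1 : (QuotientGroup.mk ((u : G) * c.out) : G ⧸ (P : Subgroup G)) =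
          QuotientGroup.mk ((u • c).out) := by
        rw [QuotientGroup.out_eq']
        conv_rhs => rw [← QuotientGroup.out_eq' c]
        rfl
      have h2 := QuotientGroup.eq.mp h1
      simpa [mul_assoc] using h2
    set d := (u • c).out with hd
    set v := (c.out)⁻¹ * (u : G)⁻¹ * d with hvd
    have hcomm : ∀ a ∈ (P : Subgroup G), ∀ b ∈ (P : Subgroup G), a * b * a⁻¹ * b⁻¹ ∈
        ⁅(P : Subgroup G), (P : Subgroup G)⁆ := fun a ha b hb => by
      rw [← commutatorElement_def]; exact Subgroup.commutator_mem_commutator ha hb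
    have hs : (u : G)⁻¹ * x * u * x⁻¹ ∈ ⁅(P : Subgroup G), (P : Subgroup G)⁆ := by
      simpa using hcomm (u : G)⁻¹ (inv_mem u.2) x hx
    set a := (c.out)⁻¹ * x * c.out with ha
    set s := (c.out)⁻¹ * ((u : G)⁻¹ * x * u * x⁻¹) * c.out with hsdef
    have hsa : v * (d⁻¹ * x * d) * v⁻¹ = s * a := by rw [hsdef, ha, hvd]; group
    have hsP : s ∈ (P : Subgroup G) := by
      have h1 : s * a ∈ (P : Subgroup G) := hsa ▸ mul_mem (mul_mem hv hm') (inv_mem hv)
      simpa using mul_mem h1 (inv_mem hm)
    have hsR : s ∈ R := hconj _ _ hs hsP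
    have hvR : v⁻¹ * (s * a) * v * (s * a)⁻¹ ∈ R := by
      have := hPder (hcomm v⁻¹ (inv_mem hv) (s * a) (mul_mem hsP hm))
      simpa using this
    have hfin : d⁻¹ * x * d * a⁻¹ = (v⁻¹ * (s * a) * v * (s * a)⁻¹) * s := by
      rw [← hsa]
      have : d⁻¹ * x * d * a⁻¹ = d⁻¹ * x * d * (v * (d⁻¹ * x * d) * v⁻¹)⁻¹ * s := by
        rw [hsa]; group
      rw [this]; group
    simp only [Subgroup.coe_mul, InvMemClass.coe_inv]
    rw [hfin]
    exact mul_mem hvR hsR
  have hF1 : ∏ c ∈ F \ F0, f c = 1 := by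
    set π : G ⧸ (P : Subgroup G) → MulAction.orbitRel.Quotient (P : Subgroup G) (G ⧸ (P : Subgroup G)) :=
      fun c => Quotient.mk _ c with hπ
    haveI : Fintype (MulAction.orbitRel.Quotient (P : Subgroup G) (G ⧸ (P : Subgroup G))) :=
      Fintype.ofFinite _
    rw [← Finset.prod_fiberwise (F \ F0) π f]
    refine Finset.prod_eq_one fun O _ => ?_
    rcases ((F \ F0).filter (fun c => π c = O)).eq_empty_or_nonempty with hemp | ⟨c0, hc0⟩
    · rw [hemp, Finset.prod_empty]
    rw [Finset.mem_filter, Finset.mem_sdiff] at hc0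
    obtain ⟨⟨hc0F, hc0F0⟩, hc0O⟩ := hc0
    have hmem : ∀ c, c ∈ (F \ F0).filter (fun c => π c = O) ↔
        c ∈ F ∧ ∃ u : (P : Subgroup G), u • c0 = c := by
      intro c
      rw [Finset.mem_filter, Finset.mem_sdiff, ← hc0O, hπ]
      constructor
      · rintro ⟨⟨hcF, -⟩, hcO⟩
        exact ⟨hcF, MulAction.mem_orbit_iff.mp (MulAction.orbitRel_apply.mp (Quotient.exact hcO))⟩
      · rintro ⟨hcF, u, rfl⟩
        refine ⟨⟨hcF, fun h0 => hc0F0 ?_⟩, Quotient.sound (MulAction.orbitRel_apply.mpr
          (MulAction.mem_orbit _ u))⟩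
        rw [hF0, Finset.mem_filter] at h0 ⊢
        refine ⟨Finset.mem_univ _, fun w => ?_⟩
        have hu : u • c0 = c0 := by
          have h5 := h0.2 u⁻¹
          rw [inv_smul_smul] at h5
          exact h5.symm
        have h6 := h0.2 w
        rwa [hu] at h6
    rw [Finset.prod_congr rfl (g := fun _ => f c0) (fun c hc => by
      obtain ⟨hcF, u, rfl⟩ := (hmem c).mp hc
      exact hconst c0 hc0F u hcF), Finset.prod_const]
    -- the number of `x`-fixed points in a non-trivial orbit is divisible by `p`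
    have hdvd : p ∣ ((F \ F0).filter (fun c => π c = O)).card := by
      set X : Subgroup (P : Subgroup G) := Subgroup.zpowers ⟨x, hx⟩ with hX
      have hXp : IsPGroup p X := P.2.to_subgroup X
      haveI : Finite (MulAction.orbit (P : Subgroup G) c0) := inferInstance
      have hmod := hXp.card_modEq_card_fixedPoints (MulAction.orbit (P : Subgroup G) c0)
      have hcardO : p ∣ Nat.card (MulAction.orbit (P : Subgroup G) c0) := by
        obtain ⟨t, ht⟩ := P.2.exists_card_eq
        have h7 : Nat.card (MulAction.orbit (P : Subgroup G) c0) ∣ p ^ t := by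
          rw [← ht, Nat.card_congr (MulAction.orbitEquivQuotientStabilizer (P : Subgroup G) c0),
            ← Subgroup.index_eq_card]
          exact Subgroup.index_dvd_card _
        obtain ⟨j, -, hj⟩ := (Nat.dvd_prime_pow hp.out).mp h7
        rcases Nat.eq_zero_or_pos j with rfl | hj0
        · exfalso
          apply hc0F0
          rw [hF0, Finset.mem_filter]
          refine ⟨Finset.mem_univ _, fun w => ?_⟩
          rw [pow_zero] at hj
          haveI := (Nat.card_eq_one_iff_unique.mp hj).1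
          exact congrArg Subtype.val (Subsingleton.elim
            (⟨w • c0, MulAction.mem_orbit _ w⟩ : MulAction.orbit (P : Subgroup G) c0)
            ⟨c0, MulAction.mem_orbit_self c0⟩)
        · exact hj ▸ dvd_pow_self p hj0.ne'
      have hcount : ((F \ F0).filter (fun c => π c = O)).card =
          Nat.card (MulAction.fixedPoints X (MulAction.orbit (P : Subgroup G) c0)) := by
        rw [← Nat.card_eq_finsetCard]
        refine Nat.card_congr
          { toFun := fun c => ⟨⟨c.1, MulAction.mem_orbit_iff.mpr ((hmem c.1).mp c.2).2⟩, ?_⟩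
            invFun := fun c => ⟨c.1.1, (hmem _).mpr ⟨?_, MulAction.mem_orbit_iff.mp c.1.2⟩⟩
            left_inv := fun c => rfl
            right_inv := fun c => rfl }
        · rintro ⟨w, hw⟩
          apply Subtype.ext
          obtain ⟨m, rfl⟩ := Subgroup.mem_zpowers_iff.mp hw
          have h8 : x • c.1 = c.1 := (Finset.mem_filter.mp ((hmem c.1).mp c.2).1).2
          show ((⟨x, hx⟩ : (P : Subgroup G)) ^ m : (P : Subgroup G)) • c.1 = c.1
          exact Subgroup.zpow_mem (MulAction.stabilizer (P : Subgroup G) c.1) (x := ⟨x, hx⟩) h8 m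
        · rw [hF, Finset.mem_filter]
          exact ⟨Finset.mem_univ _, congrArg Subtype.val (c.2 ⟨⟨x, hx⟩, Subgroup.mem_zpowers _⟩)⟩
      rw [hcount]
      exact Nat.dvd_of_mod_eq_zero (hmod.symm.trans (Nat.modEq_zero_iff_dvd.mpr hcardO))
    obtain ⟨t, ht⟩ := hdvd
    have hm := (hfix c0).mp (Finset.mem_filter.mp hc0F).2
    have hcp : (c0.out)⁻¹ * x ^ p * c0.out ∈ (P : Subgroup G) := by
      have h9 := pow_mem hm p
      rwa [show (c0.out⁻¹ * x * c0.out) ^ p = c0.out⁻¹ * x ^ p * c0.out by
        simpa using (conj_pow (a := c0.out⁻¹) (b := x) (i := p))] at h9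
    rw [ht, pow_mul, hf]
    simp only [dif_pos hm]
    rw [← map_pow, show (⟨_, hm⟩ : (P : Subgroup G)) ^ p = ⟨_, hcp⟩ from Subtype.ext (by
      simpa using (conj_pow (a := c0.out⁻¹) (b := x) (i := p))),
      hsmall p c0.out hp.out.ne_one ?_ hcp, one_pow]
    rcases Nat.eq_zero_or_pos e with rfl | he0
    · exact absurd (orderOf_eq_one_iff.mp (by simpa using he)) hx1
    · rw [he]; exact dvd_pow_self p he0.ne'
  -- conclusion
  have htriv : φ.transfer x = 1 := by
    have hker : commutator G ≤ φ.transfer.ker := by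
      rw [commutator_eq_closure, Subgroup.closure_le]
      rintro _ ⟨a, b, rfl⟩
      simp [commutatorElement_def, mul_comm]
    exact hker hxG
  rw [hA, ← Finset.prod_sdiff hF0F, hF1, one_mul, Finset.prod_congr rfl hF0f,
    Finset.prod_const] at htriv
  have hcop : F0.card.Coprime p := by
    refine coprime_of_not_dvd fun hd => P.not_dvd_index ?_
    have hmod := P.2.card_modEq_card_fixedPoints (G ⧸ (P : Subgroup G))
    have hcnt : Nat.card (MulAction.fixedPoints (P : Subgroup G) (G ⧸ (P : Subgroup G))) = F0.card := by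
      rw [← Nat.card_eq_finsetCard]
      exact Nat.card_congr (Equiv.subtypeEquivRight fun c => by
        simp [hF0, MulAction.mem_fixedPoints])
    rw [hcnt, ← Subgroup.index_eq_card] at hmod
    exact Nat.dvd_of_mod_eq_zero (hmod.trans (Nat.modEq_zero_iff_dvd.mpr hd))
  refine (hφ1 ⟨x, hx⟩).mp (orderOf_eq_one_iff.mp (eq_one_of_coprime_of_dvd_pow
    (Nat.Coprime.coprime_dvd_left (orderOf_dvd_of_pow_eq_one htriv) hcop) (k := e) ?_))
  exact ((orderOf_map_dvd φ _).trans (dvd_of_eq (Subgroup.orderOf_mk x hx))).trans (dvd_of_eq he)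

end CfsgLib.Transfer
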