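import Mathlib.GroupTheory.Transfer
import Mathlib.GroupTheory.SpecificGroups.Cyclic

/-!
Transfer into `M / H` when no element of `M \ H` is conjugate into `M` from outside `M`.
-/

set_option autoImplicit false

namespace CfsgLib.Transfer

open MulAction Subgroup

/-- If `H` is a maximal subgroup of `M`, normal in `M`, such that an element of `M` outside `H`
is carried into `M` only by elements of `M` (`h1`), and elements of `H` carried into `M` stay in
`H` (`h2`), then `M` does not lie in the normal closure of `H`. -/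
theorem not_le_normalClosure_of_no_fusion {G : Type*} [Group G] [Finite G] (H M : Subgroup G)
    (hHM : H ≤ M) (hmax : IsCoatom (H.subgroupOf M)) [(H.subgroupOf M).Normal]
    (h1 : ∀ t z : G, z ∈ M → z ∉ H → t⁻¹ * z * t ∈ M → t ∈ M)
    (h2 : ∀ t z : G, z ∈ H → t⁻¹ * z * t ∈ M → t⁻¹ * z * t ∈ H) :
    ¬ M ≤ Subgroup.normalClosure (H : Set G) := by
  classical
  intro hMN
  obtain ⟨x, hxM, hxH⟩ : ∃ x ∈ M, x ∉ H := by
    by_contra h
    exact hmax.1 (Subgroup.subgroupOf_eq_top.mpr (by simpa [SetLike.le_def] using h))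
  set Q := ↥M ⧸ H.subgroupOf M with hQ
  have hgen : ∀ a : Q, a ∈ Subgroup.zpowers (QuotientGroup.mk (⟨x, hxM⟩ : ↥M) : Q) := by
    intro a
    set Y := (Subgroup.zpowers (QuotientGroup.mk (⟨x, hxM⟩ : ↥M) : Q)).comap
      (QuotientGroup.mk' (H.subgroupOf M)) with hY
    have hlt : H.subgroupOf M < Y := by
      refine SetLike.lt_iff_le_and_exists.mpr ⟨?_, ⟨x, hxM⟩, Subgroup.mem_zpowers _, ?_⟩
      · intro b hb
        rw [hY, Subgroup.mem_comap, QuotientGroup.mk'_apply, (QuotientGroup.eq_one_iff b).mpr hb]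
        exact one_mem _
      · rwa [Subgroup.mem_subgroupOf]
    obtain ⟨b, rfl⟩ := QuotientGroup.mk'_surjective _ a
    have hb : b ∈ Y := (hmax.2 Y hlt).ge (Subgroup.mem_top b)
    exact hb
  haveI : IsCyclic Q := ⟨⟨_, hgen⟩⟩
  letI : CommGroup Q := IsCyclic.commGroup
  let φ : ↥M →* Q := QuotientGroup.mk' (H.subgroupOf M)
  have hφ : ∀ (z : G) (hz : z ∈ M), φ ⟨z, hz⟩ = 1 ↔ z ∈ H := fun z hz => by
    rw [show φ ⟨z, hz⟩ = (QuotientGroup.mk (⟨z, hz⟩ : ↥M) : Q) from rfl]
    exact (QuotientGroup.eq_one_iff _).trans Subgroup.mem_subgroupOf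
  haveI : Fintype (Quotient (orbitRel (zpowers x) (G ⧸ M))) := Fintype.ofFinite _
  have hterm : ∀ (z : G), z ∈ H → ∀ (t : G) (n : ℕ) (hm : t⁻¹ * z ^ n * t ∈ M),
      φ ⟨_, hm⟩ = 1 := fun z hz t n hm => (hφ _ hm).mpr (h2 t _ (H.pow_mem hz n) hm)
  have hker : Subgroup.normalClosure (H : Set G) ≤ (MonoidHom.transfer φ).ker := by
    refine Subgroup.normalClosure_le_normal fun z hz => ?_
    haveI : Fintype (Quotient (orbitRel (zpowers z) (G ⧸ M))) := Fintype.ofFinite _
    rw [SetLike.mem_coe, MonoidHom.mem_ker, MonoidHom.transfer_eq_prod_quotient_orbitRel_zpowers_quot]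
    exact Finset.prod_eq_one fun q _ => hterm z hz _ _ _
  have h0 : MonoidHom.transfer φ x = 1 := hker (hMN hxM)
  rw [MonoidHom.transfer_eq_prod_quotient_orbitRel_zpowers_quot] at h0
  set q0 : Quotient (orbitRel (zpowers x) (G ⧸ M)) := Quotient.mk'' ((1 : G) : G ⧸ M) with hq0
  have hfix : x • ((1 : G) : G ⧸ M) = ((1 : G) : G ⧸ M) := by
    show ((x * 1 : G) : G ⧸ M) = _
    rw [QuotientGroup.eq, mul_one, mul_one]
    exact M.inv_mem hxM
  have hout : q0.out = ((1 : G) : G ⧸ M) := by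
    have h3 : q0.out ∈ MulAction.orbit (zpowers x) ((1 : G) : G ⧸ M) :=
      Quotient.exact' (Quotient.out_eq' q0)
    obtain ⟨⟨a, ha⟩, hae⟩ := h3
    rw [← hae]
    obtain ⟨k, rfl⟩ := Subgroup.mem_zpowers_iff.mp ha
    exact (MulAction.stabilizer G ((1 : G) : G ⧸ M)).zpow_mem hfix k
  have ht0 : q0.out.out ∈ M := by
    have h4 : ((q0.out.out : G) : G ⧸ M) = ((1 : G) : G ⧸ M) := (QuotientGroup.out_eq' _).trans hout
    rw [QuotientGroup.eq, mul_one] at h4
    exact inv_mem_iff.mp h4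
  have hn0 : Function.minimalPeriod (x • ·) q0.out = 1 := by
    rw [Function.minimalPeriod_eq_one_iff_isFixedPt, hout]
    exact hfix
  rw [Finset.prod_eq_single q0] at h0
  · have h5 : (φ ⟨q0.out.out, ht0⟩)⁻¹ * φ ⟨x, hxM⟩ * φ ⟨q0.out.out, ht0⟩ = 1 := by
      rw [← h0, ← map_inv, ← map_mul, ← map_mul]
      congr 1
      apply Subtype.ext
      simp [hn0]
    rw [mul_comm _ (φ ⟨x, hxM⟩), inv_mul_cancel_right] at h5
    exact hxH ((hφ x hxM).mp h5)
  · intro q _ hq
    refine (hφ _ _).mpr ?_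
    set n := Function.minimalPeriod (x • ·) q.out
    set t := q.out.out
    have hm : t⁻¹ * x ^ n * t ∈ M := QuotientGroup.out_conj_pow_minimalPeriod_mem M x q.out
    by_cases hz : x ^ n ∈ H
    · exact h2 t _ hz hm
    · exfalso
      have ht : t ∈ M := h1 t _ (M.pow_mem hxM n) hz hm
      apply hq
      rw [hq0, ← Quotient.out_eq' q]
      congr 1
      rw [← QuotientGroup.out_eq' q.out]
      rw [QuotientGroup.eq, mul_one]
      exact M.inv_mem ht
  · exact fun h => absurd (Finset.mem_univ q0) h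

end CfsgLib.Transfer
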