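import Mathlib
import Cfsg.Agent.Transfer.NormalPComplement
import Cfsg.Agent.Transfer.Tate

/-!
Normal `p`-complements modulo a normal subgroup inside the Frattini subgroup of a Sylow subgroup.
-/

namespace CfsgLib.Transfer

universe u

variable {G : Type u} [Group G] {p : ℕ}

/-- If `Q ⊴ G` lies in the Frattini subgroup of a Sylow `p`-subgroup and `G ⧸ Q` has a normal
`p`-complement, then so has `G`. -/
theorem hasNormalPComplement_of_quotient_le_frattini [Finite G] [hp : Fact p.Prime]
    (P : Sylow p G) (Q : Subgroup G) [Q.Normal]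
    (hQ : Q ≤ (frattini (P : Subgroup G)).map (P : Subgroup G).subtype)
    (h : Cfsg.HasNormalPComplement p (G ⧸ Q)) : Cfsg.HasNormalPComplement p G := by
  obtain ⟨N, hN, hc, k, hk⟩ := hasNormalPComplement_iff_exists.mp h
  haveI := hN
  set L := N.comap (QuotientGroup.mk' Q) with hL
  have hLP : L ⊓ (P : Subgroup G) ≤ (frattini (P : Subgroup G)).map (P : Subgroup G).subtype := by
    intro x hx
    refine hQ ((QuotientGroup.eq_one_iff x).mp (orderOf_eq_one_iff.mp ?_))
    obtain ⟨j, hj⟩ := IsPGroup.iff_orderOf.mp P.2 ⟨x, hx.2⟩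
    rw [Subgroup.orderOf_mk] at hj
    exact eq_one_of_coprime_of_dvd_pow
      (Nat.Coprime.coprime_dvd_left (Subgroup.orderOf_dvd_natCard N hx.1) hc)
      (hj ▸ orderOf_map_dvd (QuotientGroup.mk' Q) x)
  have hLnpc : Cfsg.HasNormalPComplement p L := CfsgLib.Transfer.tate_normal_pComplement P L hLP
  obtain ⟨a, ha⟩ : ∃ a, (Cfsg.pResidual p L).index = p ^ a := by
    haveI := CfsgLib.CharP.pResidual_normal (G := L) (p := p)
    exact exists_index_eq_pow_of_isPGroup_quotient
      (CfsgLib.CharP.isPGroup_quotient_pResidual _ le_rfl)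
  haveI : (Cfsg.pResidual p L).Characteristic := by
    refine Subgroup.characteristic_iff_le_comap.mpr fun φ g hg => ?_
    rw [Subgroup.mem_comap, mem_pResidual_iff hLnpc] at *
    rwa [MulEquiv.coe_toMonoidHom, MulEquiv.orderOf_eq]
  refine hasNormalPComplement_iff_exists.mpr
    ⟨(Cfsg.pResidual p L).map L.subtype, inferInstance, ?_, a + k, ?_⟩
  · rw [Subgroup.card_map_of_injective L.subtype_injective]
    exact hasNormalPComplement_iff_coprime_pResidual.mp hLnpc
  · rw [Subgroup.index_map_subtype, ha, hL,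
      Subgroup.index_comap_of_surjective _ (QuotientGroup.mk'_surjective Q), hk, pow_add]

end CfsgLib.Transfer
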